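import Cfsg.Agent.Lib.CoprimeHyperplane

/-!
# Coprime generation, ambient form without finiteness of the ambient group (helper554)
-/

set_option autoImplicit false

namespace Cfsg.Agent.H554.BS

open Subgroup Cfsg.Agent.Lib.CoprimeHyperplane

/-- the property of subgroups with cyclic quotient -/
def PairP {Γ : Type*} [Group Γ] (q : ℕ) (Om R : Subgroup Γ) : Prop :=
  ∀ h ∈ Om, ∀ h' ∈ Om, ∃ a b : ℕ, ¬ (q ∣ a ∧ q ∣ b) ∧ h ^ a * h' ^ b ∈ R

theorem pair_of_index {A : Type*} [CommGroup A] [Finite A] {q : ℕ} (hq : q.Prime) {B : Subgroup A}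
    (hB : B.index = q) (h h' : A) : ∃ a b : ℕ, ¬ (q ∣ a ∧ q ∣ b) ∧ h ^ a * h' ^ b ∈ B := by
  have := Fact.mk hq
  have hq1 : ¬ q ∣ 1 := fun hd => hq.one_lt.ne' (Nat.dvd_one.1 hd)
  by_cases h1 : h ∈ B
  · exact ⟨1, 0, fun hd => hq1 hd.1, by simpa using h1⟩
  · have h2 : (QuotientGroup.mk h : A ⧸ B) ≠ 1 := fun e => h1 ((QuotientGroup.eq_one_iff h).1 e)
    have hcard : Nat.card (A ⧸ B) = q := hB
    obtain ⟨a, ha⟩ := mem_powers_of_prime_card (p := q) hcard h2 (g' := (QuotientGroup.mk h' : A ⧸ B)⁻¹)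
    refine ⟨a, 1, fun hd => hq1 hd.2, ?_⟩
    rw [pow_one, ← QuotientGroup.eq_one_iff, QuotientGroup.mk_mul, QuotientGroup.mk_pow]
    have ha' : (QuotientGroup.mk h : A ⧸ B) ^ a = (QuotientGroup.mk h' : A ⧸ B)⁻¹ := ha
    rw [ha', inv_mul_cancel]

theorem gen_fix {Γ : Type*} [Group Γ] {Om P K : Subgroup Γ} {q : ℕ} (hq : q.Prime) (hq2 : q ≠ 2)
    (hab : ∀ x ∈ Om, ∀ y ∈ Om, x * y = y * x) (hexp : ∀ x ∈ Om, x ^ q = 1) (hfin : Finite Om) (hne : Om ≠ ⊥)
    (hP : Finite P) (hP2 : IsPGroup 2 P) (hn : ∀ t ∈ Om, ∀ x ∈ P, t * x * t⁻¹ ∈ P)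
    (hK : ∀ R : Subgroup Γ, R ≤ Om → PairP q Om R → ∀ x ∈ P, (∀ t ∈ R, t * x = x * t) → x ∈ K) : P ≤ K := by
  have := Fact.mk hq
  have := Fact.mk Nat.prime_two
  letI : CommGroup ↥Om := { (inferInstance : Group ↥Om) with
    mul_comm := fun a b => Subtype.ext (hab a a.2 b b.2) }
  let φ : ↥Om →* MulAut ↥P :=
    { toFun := fun t =>
        { toFun := fun x => ⟨t * x * (t : Γ)⁻¹, hn t t.2 x x.2⟩
          invFun := fun x => ⟨(t : Γ)⁻¹ * x * t, by
            have h1 := hn _ (inv_mem t.2) x x.2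
            rwa [inv_inv] at h1⟩
          left_inv := fun x => Subtype.ext (by simp [mul_assoc])
          right_inv := fun x => Subtype.ext (by simp [mul_assoc])
          map_mul' := fun x y => Subtype.ext (by simp [mul_assoc]) }
      map_one' := by
        ext x
        simp
      map_mul' := by
        intro s t
        ext x
        simp [mul_assoc] }
  have hφ : ∀ (t : Om) (x : P), ((φ t x : P) : Γ) = t * x * (t : Γ)⁻¹ := fun _ _ => rfl
  have hnt : Nontrivial ↥Om := (Subgroup.nontrivial_iff_ne_bot Om).2 hne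
  have htop := iSup_fix_eq_top_of_isPGroup (p := q) (q := 2) hq2 (A := ↥Om) (R := ↥P)
    (φ := φ) (fun a => Subtype.ext (hexp a a.2)) hP2
  intro x hx
  have h1 : (⟨x, hx⟩ : P) ∈ (⨆ B : {B : Subgroup ↥Om // B.index = q}, fix φ B.1) := by
    rw [htop]; exact mem_top _
  have h2 : (⨆ B : {B : Subgroup ↥Om // B.index = q}, fix φ B.1) ≤ K.subgroupOf P := by
    refine iSup_le fun B y hy => ?_
    rw [mem_subgroupOf]
    refine hK (B.1.map Om.subtype) (map_subtype_le _) ?_ y y.2 ?_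
    · intro h hh h' hh'
      obtain ⟨a, b, hab', hm⟩ := pair_of_index hq B.2 ⟨h, hh⟩ ⟨h', hh'⟩
      exact ⟨a, b, hab', ⟨_, hm, rfl⟩⟩
    · rintro _ ⟨t, ht, rfl⟩
      have h3 := congrArg (fun z : P => (z : Γ)) ((mem_fix φ).1 hy t ht)
      simp only [hφ] at h3
      exact mul_inv_eq_iff_eq_mul.1 h3
  exact h2 h1

end Cfsg.Agent.H554.BS
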