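import Cfsg.Prelude
import Cfsg.Agent.Lib.Cores

/-!
# Interface with helper167's theorem (helper554)
-/

set_option autoImplicit false

namespace Cfsg.Agent.H554.BS

open Cfsg

universe v

/-- **The conclusion of part (1) of B\***: `X` the set of the elements `xd hp i d`, `d ∈ L0`, `T = TT D k`. -/
def OneP {Γ : Type v} [Group Γ] (p : ℕ) (X : Set Γ) (T : Subgroup Γ) : Prop :=
  ∀ K : Subgroup Γ, Finite K → ¬ 3 ∣ Nat.card K → ¬ p ∣ Nat.card K → X ⊆ K →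
    ∃ N ≤ K, (∀ h ∈ K, ∀ n ∈ N, h * n * h⁻¹ ∈ N) ∧ N ≤ T ∧ Odd (Nat.card N) ∧
      ∀ x ∈ K, (∀ n ∈ N, x * n = n * x) → (∀ y ∈ (pCore 2 K).map K.subtype, x * y = y * x) →
        x ∈ (pCore 2 K).map K.subtype ⊔ N

end Cfsg.Agent.H554.BS
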