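import Cfsg.Agent.H167.OP.Beta
import Cfsg.Agent.H167.OP.MinD2

/-!
# Elements of order at least 5 normalising a finite 2-subgroup of `SL₂(k)` centralise it (helper554)
-/

set_option autoImplicit false

namespace Cfsg.Agent.H554.BS

open Cfsg.Agent.H167.OP Module

variable {k : Type*} [Field k]

local notation "SL₂" => Matrix.SpecialLinearGroup (Fin 2) k

theorem nrm_pow' {G : Type*} [Group G] {Γ : Subgroup G} {B : G} (hn : ∀ A ∈ Γ, B * A * B⁻¹ ∈ Γ) (i : ℕ) :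
    ∀ A ∈ Γ, B ^ i * A * (B ^ i)⁻¹ ∈ Γ := by
  induction i with
  | zero => intro A hA; simpa using hA
  | succ i ih =>
    intro A hA
    have h1 := ih _ (hn A hA)
    have e : B ^ (i + 1) * A * (B ^ (i + 1))⁻¹ = B ^ i * (B * A * B⁻¹) * (B ^ i)⁻¹ := by
      rw [pow_succ]; group
    rwa [e]

/-- the group `Γ ⟨B⟩` -/
def prodCyc {G : Type*} [Group G] (Γ : Subgroup G) (B : G) (s : ℕ) (hs : s ≠ 0) (hB : B ^ s = 1)
    (hn : ∀ A ∈ Γ, B * A * B⁻¹ ∈ Γ) : Subgroup G where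
  carrier := {x | ∃ A ∈ Γ, ∃ i : ℕ, x = A * B ^ i}
  one_mem' := ⟨1, one_mem _, 0, by simp⟩
  mul_mem' := by
    rintro _ _ ⟨A, hA, i, rfl⟩ ⟨A', hA', j, rfl⟩
    exact ⟨A * (B ^ i * A' * (B ^ i)⁻¹), mul_mem hA (nrm_pow' hn i _ hA'), i + j, by rw [pow_add]; group⟩
  inv_mem' := by
    rintro _ ⟨A, hA, i, rfl⟩
    have hinv : (B ^ i)⁻¹ = B ^ ((s - 1) * i) := by
      rw [inv_eq_iff_mul_eq_one, ← pow_add]
      have e : i + (s - 1) * i = s * i := by
        obtain ⟨n, rfl⟩ := Nat.exists_eq_succ_of_ne_zero hs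
        show i + (n + 1 - 1) * i = (n + 1) * i
        rw [Nat.add_sub_cancel]
        ring
      rw [e, pow_mul, hB, one_pow]
    refine ⟨B ^ ((s - 1) * i) * A⁻¹ * (B ^ ((s - 1) * i))⁻¹, nrm_pow' hn _ _ (inv_mem hA), (s - 1) * i, ?_⟩
    rw [mul_inv_rev, hinv]
    group

theorem mem_prodCyc {G : Type*} [Group G] {Γ : Subgroup G} {B : G} {s : ℕ} {hs : s ≠ 0} {hB : B ^ s = 1}
    {hn : ∀ A ∈ Γ, B * A * B⁻¹ ∈ Γ} {x : G} : x ∈ prodCyc Γ B s hs hB hn ↔ ∃ A ∈ Γ, ∃ i : ℕ, x = A * B ^ i := Iff.rfl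

theorem finite_prodCyc {G : Type*} [Group G] {Γ : Subgroup G} {B : G} {s : ℕ} {hs : s ≠ 0} {hB : B ^ s = 1}
    {hn : ∀ A ∈ Γ, B * A * B⁻¹ ∈ Γ} (hfin : Finite Γ) : Finite ↥(prodCyc Γ B s hs hB hn) := by
  let f : Γ × Fin s → ↥(prodCyc Γ B s hs hB hn) := fun x => ⟨x.1 * B ^ (x.2 : ℕ), ⟨x.1, x.1.2, _, rfl⟩⟩
  refine Finite.of_surjective f ?_
  rintro ⟨_, A, hA, i, rfl⟩
  refine ⟨(⟨A, hA⟩, ⟨i % s, Nat.mod_lt _ (Nat.pos_of_ne_zero hs)⟩), Subtype.ext ?_⟩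
  show A * B ^ (i % s) = A * B ^ i
  rw [← Nat.mod_add_div i s, pow_add, pow_mul, hB, one_pow, mul_one]
  simp

/-- the natural representation -/
noncomputable def nat2 (k : Type*) [Field k] : Matrix.SpecialLinearGroup (Fin 2) k →* End k (Fin 2 → k) :=
  (Matrix.toLinAlgEquiv' (R := k) (n := Fin 2) : Matrix (Fin 2) (Fin 2) k →* End k (Fin 2 → k)).comp
    { toFun := fun A => A.1
      map_one' := rfl
      map_mul' := fun _ _ => rfl }

theorem nat2_injective : Function.Injective (nat2 k) := by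
  intro A B h
  apply Subtype.ext
  exact (Matrix.toLinAlgEquiv' (R := k) (n := Fin 2)).injective h

/-- an element of order at most 2 of `SL₂(k)` is `±1` -/
theorem sq_one {A : Matrix.SpecialLinearGroup (Fin 2) k} (h2 : (2 : k) ≠ 0) (hA : A ^ 2 = 1) (B : SL₂) : B * A = A * B := by
  have hinv : A = A⁻¹ := by
    rw [eq_inv_iff_mul_eq_one, ← pow_two, hA]
  have h1 : A.1 0 1 = 0 := by
    have := congrArg (fun X : SL₂ => X.1 0 1) hinv
    simp only [Matrix.SpecialLinearGroup.SL2_inv_expl] at this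
    have h3 : A.1 0 1 = - A.1 0 1 := by simpa using this
    have h4 : 2 * A.1 0 1 = 0 := by linear_combination h3
    exact (mul_eq_zero.1 h4).resolve_left h2
  have h3 : A.1 1 0 = 0 := by
    have := congrArg (fun X : SL₂ => X.1 1 0) hinv
    simp only [Matrix.SpecialLinearGroup.SL2_inv_expl] at this
    have h3 : A.1 1 0 = - A.1 1 0 := by simpa using this
    have h4 : 2 * A.1 1 0 = 0 := by linear_combination h3
    exact (mul_eq_zero.1 h4).resolve_left h2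
  have h4 : A.1 0 0 = A.1 1 1 := by
    have := congrArg (fun X : SL₂ => X.1 0 0) hinv
    simp only [Matrix.SpecialLinearGroup.SL2_inv_expl] at this
    simpa using this
  apply Subtype.ext
  ext i j
  show (B.1 * A.1) i j = (A.1 * B.1) i j
  rw [Matrix.mul_apply, Matrix.mul_apply, Fin.sum_univ_two, Fin.sum_univ_two]
  fin_cases i <;> fin_cases j <;> simp [h1, h3, h4] <;> ring

theorem comm_of_two (h2 : (2 : k) ≠ 0) {s : ℕ} (hs : s.Prime) (h5 : 5 ≤ s) (Γ : Subgroup SL₂) (hfin : Finite Γ)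
    (hΓ : IsPGroup 2 Γ) (B : SL₂) (hB : B ^ s = 1) (hn : ∀ A ∈ Γ, B * A * B⁻¹ ∈ Γ) : ∀ A ∈ Γ, B * A = A * B := by
  set S := prodCyc Γ B s hs.ne_zero hB hn with hS
  have hSfin : Finite ↥S := finite_prodCyc hfin
  have hΓS : Γ ≤ S := fun A hA => ⟨A, hA, 0, by simp⟩
  have hBS : B ∈ S := ⟨1, one_mem _, 1, by simp⟩
  set y : ↥S := ⟨B, hBS⟩ with hy
  by_contra hcon
  push Not at hcon
  obtain ⟨A₀, hA₀, hne⟩ := hcon
  obtain ⟨E, hE, hmin⟩ := exists_minD (G := ↥S) Nat.prime_two hs (by omega) (y := y) (B := Γ.subgroupOf S) (by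
    rintro ⟨d, hd⟩ hd'
    obtain ⟨j, hj⟩ := hΓ ⟨d, hd'⟩
    exact ⟨j, Subtype.ext (congrArg (fun z : Γ => (z : SL₂)) hj)⟩) ⟨1, Subtype.ext (by simpa using hB)⟩ (by
    rintro ⟨d, hd⟩ hd'
    exact hn d hd') (by
    intro h
    exact hne (congrArg Subtype.val (h ⟨A₀, hΓS hA₀⟩ hA₀)))
  by_cases hab : ∀ a ∈ E, ∀ b ∈ E, a * b = b * a
  · apply hmin.ncen
    intro d hd
    have h1 := hmin.pow_eq_one hab hd
    exact Subtype.ext (sq_one h2 (congrArg Subtype.val h1) B)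
  · push Not at hab
    obtain ⟨a, ha, b, hb, hab⟩ := hab
    let ρ : Representation k ↥S (Fin 2 → k) := (nat2 k).comp S.subtype
    have hρ : ρ (a * b * a⁻¹ * b⁻¹) ≠ 1 := by
      intro h
      have h1 : nat2 k (a * b * a⁻¹ * b⁻¹ : ↥S) = nat2 k 1 := by
        rw [map_one]
        exact h
      have h3 := nat2_injective h1
      have h4 : a * b * a⁻¹ * b⁻¹ = 1 := Subtype.ext h3
      exact hab (mul_inv_eq_iff_eq_mul.1 (mul_inv_eq_one.1 h4))
    obtain ⟨δ, hδ1, hδ2, -, hδ⟩ := beta_gen ρ hmin (by exact_mod_cast h2) ha hb hρ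
    have h3 : finrank k (LinearMap.range (ρ (a * b * a⁻¹ * b⁻¹) - 1)) ≤ 2 := by
      refine (Submodule.finrank_le _).trans ?_
      simp
    have h4 : δ = 2 := by omega
    subst h4
    have h6 := (Nat.modEq_iff_dvd' (by norm_num : 1 ≤ 2 ^ 2)).1 hδ.symm
    have := Nat.le_of_dvd (by norm_num) h6
    omega

end Cfsg.Agent.H554.BS
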