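import Cfsg.Agent.H554.BS.SLTwo
import Cfsg.Agent.H167.EX.Fix2

/-!
# 2-subgroups of `L₁ L₂ T` normalised by a toral `q`-group, `q ≥ 5` (helper554)
-/

set_option autoImplicit false
set_option linter.unusedSectionVars false

namespace Cfsg.Agent.H554.BS

open CoxeterSystem Cfsg Cfsg.Lie Cfsg.Lie.ChevalleyDatum
open Cfsg.Agent.ChevalleyStructure Cfsg.Agent.ChevalleyStructure.Elts Cfsg.Agent.ChevalleyStructure.CoxeterGeom
  Cfsg.Agent.ChevalleyStructure.CoxeterGeomTypes Cfsg.Agent.ChevalleyStructure.NPerm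
open Cfsg.Agent.Tits.Roots Cfsg.Agent.Tits.Core Cfsg.Agent.Nodes Cfsg.Agent.Nodes.Reps Cfsg.Agent.Nodes.BNOf
  Cfsg.Agent.Nodes.RGDChev Cfsg.Agent.Nodes.Bruhat Cfsg.Agent.Nodes.NormalForm
open Cfsg.Agent.KFacts.RgdField Cfsg.Agent.KFacts.RgdChevCoord
open Cfsg.Agent.BpExc Cfsg.Agent.BpExc.TorCent Cfsg.Agent.BpExc.TorChev Cfsg.Agent.BpExc.Tow
  Cfsg.Agent.BpExc.TowChev Cfsg.Agent.BpExc.Fr Cfsg.Agent.BpExc.Pair Cfsg.Agent.BpExc.LangFr Cfsg.Agent.GpExc.Field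
  Cfsg.Agent.BpExc.TorAll
open Cfsg.Agent.H469.Exc Cfsg.Agent.H469.Exc.SigFr
open Cfsg.Agent.Nodes.RGDFoldSL
open Cfsg.Agent.ChevalleyStructure.SL2Hom (up lo mem_closure_SL2)
open Cfsg.Agent.H167.EX
open Module

universe u v

variable {D : ChevalleyDatum} {l : ℕ} {M : CoxeterMatrix (Fin l)} (hp : IsType D l M) {k : Type u} [Field k]

/-- `ph` is injective if some root has pairing 1 with the root `s` -/
theorem ph_inj {s : ℕ} (hs : s < D.nroots) [IsAlgClosed k] (h2 : (2 : k) ≠ 0) (p : ℕ) [Fact p.Prime] [CharP k p]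
    (hk : LocFin k) {r : ℕ} (hr : r < D.nroots) (he : HMatDiagAll.expo D s r = 1) {A : SL k}
    (hA : ph hp k hs A = 1) : A = 1 := by
  obtain ⟨P, hP⟩ := exists_tri h2 A
  have hB : ph hp k hs (P⁻¹ * A * P) = 1 := by
    rw [map_mul, map_mul, hA, mul_one, ← map_mul, inv_mul_cancel, map_one]
  obtain ⟨h0, hB1⟩ := tri_eq hP
  set x := (P⁻¹ * A * P).1 0 0 with hx
  set y := (x)⁻¹ * (P⁻¹ * A * P).1 0 1 with hy
  rw [hB1, map_mul, ph_up] at hB
  have hy0 : y = 0 := by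
    refine xs_TT hp hs p hk ?_
    rw [eq_inv_of_mul_eq_one_right hB]
    exact inv_mem (ph_hS_mem hp hs h0)
  rw [hy0] at hB hB1
  have hx1 : x = 1 := by
    have h3 : xs hp.inList s (0 : k) = 1 := by rw [← ph_up hp hs, up_zero, map_one]
    rw [h3, mul_one] at hB
    have h4 := ch_ph_hS hp hs p hk h0 hr
    rw [hB, ch_one hp p hk hr, he, zpow_one] at h4
    exact h4.symm
  have h5 : P⁻¹ * A * P = 1 := by
    rw [hB1, hx1, up_zero, mul_one]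
    apply Subtype.ext
    rw [coe_hS one_ne_zero]
    ext a b
    fin_cases a <;> fin_cases b <;> simp
  have h6 : A = P * (P⁻¹ * A * P) * P⁻¹ := by group
  rw [h6, h5, mul_one, mul_inv_cancel]

/-- strongly orthogonal roots -/
def pairOK (D : ChevalleyDatum) (s s' : ℕ) : Bool :=
  decide (s < D.nroots) && decide (s' < D.nroots) && decide (s' ≠ s) && decide (s' ≠ D.neg s) &&
    decide (s ≠ D.neg s') && decide (D.neg s ≠ D.neg s') &&
    (D.commTerms s s').isEmpty && (D.commTerms (D.neg s) s').isEmpty &&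
    (D.commTerms s (D.neg s')).isEmpty && (D.commTerms (D.neg s) (D.neg s')).isEmpty &&
    decide (HMatDiagAll.expo D s s' = 0) && decide (HMatDiagAll.expo D s' s = 0) &&
    ((List.range D.nroots).any fun r => decide (HMatDiagAll.expo D s r = 1)) &&
    ((List.range D.nroots).any fun r => decide (HMatDiagAll.expo D s' r = 1))

structure POK (D : ChevalleyDatum) (s s' : ℕ) : Prop where
  hs : s < D.nroots
  hs' : s' < D.nroots
  ne : s' ≠ s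
  ne1 : s' ≠ D.neg s
  ne2 : s ≠ D.neg s'
  ne3 : D.neg s ≠ D.neg s'
  c1 : (D.commTerms s s').isEmpty = true
  c2 : (D.commTerms (D.neg s) s').isEmpty = true
  c3 : (D.commTerms s (D.neg s')).isEmpty = true
  c4 : (D.commTerms (D.neg s) (D.neg s')).isEmpty = true
  e1 : HMatDiagAll.expo D s s' = 0
  e2 : HMatDiagAll.expo D s' s = 0
  o1 : ∃ r < D.nroots, HMatDiagAll.expo D s r = 1
  o2 : ∃ r < D.nroots, HMatDiagAll.expo D s' r = 1

theorem POK.of {s s' : ℕ} (h : pairOK D s s' = true) : POK D s s' := by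
  unfold pairOK at h
  simp only [Bool.and_eq_true, decide_eq_true_iff] at h
  obtain ⟨⟨⟨⟨⟨⟨⟨⟨⟨⟨⟨⟨⟨h1, h2⟩, h3⟩, h4⟩, h5⟩, h6⟩, h7⟩, h8⟩, h9⟩, h10⟩, h11⟩, h12⟩, h13⟩, h14⟩ := h
  refine ⟨h1, h2, h3, h4, h5, h6, h7, h8, h9, h10, h11, h12, ?_, ?_⟩
  · obtain ⟨r, hr, h⟩ := List.any_eq_true.1 h13
    exact ⟨r, List.mem_range.1 hr, of_decide_eq_true h⟩
  · obtain ⟨r, hr, h⟩ := List.any_eq_true.1 h14
    exact ⟨r, List.mem_range.1 hr, of_decide_eq_true h⟩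

variable {s s' : ℕ} (hP : POK D s s')

include hP in
theorem ph_comm (A B : SL k) : ph hp k hP.hs A * ph hp k hP.hs' B = ph hp k hP.hs' B * ph hp k hP.hs A := by
  have hns := neg_lt hp.inList hP.hs
  have hns' := neg_lt hp.inList hP.hs'
  have h1 : ∀ u, xs hp.inList s' u ∈ Subgroup.centralizer ((ph hp k hP.hs).range : Set ↥(D.group k)) := fun u =>
    mem_cent hp hP.hs (fun t => Subtype.ext (KFacts.Mult.Chev.commute_of_empty hp hP.hs hP.hs' hP.ne hP.ne1 hP.c1 t u))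
      (fun t => Subtype.ext (KFacts.Mult.Chev.commute_of_empty hp hns hP.hs' hP.ne1
        (by rw [neg_neg_eq hp hP.hs]; exact hP.ne) hP.c2 t u))
  have h2 : ∀ u, xs hp.inList (D.neg s') u ∈ Subgroup.centralizer ((ph hp k hP.hs).range : Set ↥(D.group k)) := fun u =>
    mem_cent hp hP.hs (fun t => Subtype.ext (KFacts.Mult.Chev.commute_of_empty hp hP.hs hns' (Ne.symm hP.ne2)
        (Ne.symm hP.ne3) hP.c3 t u))
      (fun t => Subtype.ext (KFacts.Mult.Chev.commute_of_empty hp hns hns' (Ne.symm hP.ne3)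
        (by rw [neg_neg_eq hp hP.hs]; exact Ne.symm hP.ne2) hP.c4 t u))
  have h3 : B ∈ (Subgroup.centralizer ((ph hp k hP.hs).range : Set ↥(D.group k))).comap (ph hp k hP.hs') := by
    refine (Subgroup.closure_le _).2 ?_ (mem_closure_SL2 B)
    rintro _ (⟨t, rfl⟩ | ⟨t, rfl⟩)
    · rw [SetLike.mem_coe, Subgroup.mem_comap, ph_up]; exact h1 t
    · rw [SetLike.mem_coe, Subgroup.mem_comap, ph_lo]; exact h2 t
  exact Subgroup.mem_centralizer_iff.1 (Subgroup.mem_comap.1 h3) _ ⟨A, rfl⟩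

section core

variable {Y : Type v} [Group Y] {f₁ f₂ : SL k →* Y} {C : Subgroup Y}

/-- a central element of `SL₂` -/
theorem central_of (hinj : Function.Injective f₁) {X : SL k} (hX : ∀ A, f₁ X * f₁ A = f₁ A * f₁ X) :
    X ∈ Subgroup.center (SL k) := by
  rw [Subgroup.mem_center_iff]
  intro A
  apply hinj
  rw [map_mul, map_mul]
  exact (hX A).symm

theorem first_factor (h2 : (2 : k) ≠ 0) (hinj : Function.Injective f₁)
    (hc : ∀ A B, f₁ A * f₂ B = f₂ B * f₁ A) (hCab : ∀ c ∈ C, ∀ d ∈ C, c * d = d * c)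
    (hC1 : ∀ c ∈ C, ∀ A, c * f₁ A = f₁ A * c) (hC2 : ∀ c ∈ C, ∀ A, c * f₂ A = f₂ A * c)
    {q : ℕ} (hq : q.Prime) (h5 : 5 ≤ q) {P : Subgroup Y} (hfin : Finite P) (hP : IsPGroup 2 P) {h : Y} {B₁ B₂ : SL k} {e : Y}
    (he : e ∈ C) (hh : h = f₁ B₁ * f₂ B₂ * e) (hB : B₁ ^ q = 1) (hn : ∀ x ∈ P, h * x * h⁻¹ ∈ P) {A B : SL k} {c : Y}
    (hcC : c ∈ C) (hA : f₁ A * f₂ B * c ∈ P) : B₁ * A = A * B₁ := by
  -- elements `f₂ B * c` commute with `f₁`
  have hbc : ∀ B, ∀ c ∈ C, ∀ A, f₂ B * c * f₁ A = f₁ A * (f₂ B * c) := by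
    intro B c hcC A
    rw [mul_assoc, hC1 c hcC, ← mul_assoc, ← hc, mul_assoc]
  let Γ : Subgroup (SL k) :=
    { carrier := {A | ∃ B, ∃ c ∈ C, f₁ A * f₂ B * c ∈ P}
      one_mem' := ⟨1, 1, one_mem _, by simp [one_mem]⟩
      mul_mem' := by
        rintro A A' ⟨B, c, hcC, hA⟩ ⟨B', c', hcC', hA'⟩
        refine ⟨B * B', c * c', mul_mem hcC hcC', ?_⟩
        have e1 : f₁ (A * A') * f₂ (B * B') * (c * c') = (f₁ A * f₂ B * c) * (f₁ A' * f₂ B' * c') := by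
          have h1 := hbc B c hcC A'
          have h3 := hC2 c hcC B'
          calc f₁ (A * A') * f₂ (B * B') * (c * c') = f₁ A * f₁ A' * f₂ B * (f₂ B' * c) * c' := by
                rw [map_mul, map_mul]; group
            _ = f₁ A * f₁ A' * f₂ B * (c * f₂ B') * c' := by rw [h3]
            _ = f₁ A * (f₁ A' * (f₂ B * c)) * f₂ B' * c' := by group
            _ = f₁ A * (f₂ B * c * f₁ A') * f₂ B' * c' := by rw [h1]
            _ = (f₁ A * f₂ B * c) * (f₁ A' * f₂ B' * c') := by group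
        rw [e1]
        exact mul_mem hA hA'
      inv_mem' := by
        rintro A ⟨B, c, hcC, hA⟩
        refine ⟨B⁻¹, c⁻¹, inv_mem hcC, ?_⟩
        have e1 : f₁ A⁻¹ * f₂ B⁻¹ * c⁻¹ = (f₁ A * f₂ B * c)⁻¹ := by
          have h1 : f₁ A * f₂ B * c = c * f₂ B * f₁ A := by rw [hc, mul_assoc, ← hC1 c hcC, ← mul_assoc, hC2 c hcC]
          rw [h1]
          simp [mul_assoc]
        rw [e1]
        exact inv_mem hA }
  have hΓ : ∀ A, A ∈ Γ ↔ ∃ B, ∃ c ∈ C, f₁ A * f₂ B * c ∈ P := fun A => Iff.rfl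
  have hZ : ∀ A B c A' B' c', c ∈ C → c' ∈ C → f₁ A * f₂ B * c = f₁ A' * f₂ B' * c' →
      A'⁻¹ * A ∈ Subgroup.center (SL k) := by
    intro A B c A' B' c' hcC hcC' he
    refine central_of hinj fun X => ?_
    have h1 : f₁ (A'⁻¹ * A) = f₂ B' * c' * (f₂ B * c)⁻¹ := by
      rw [map_mul, map_inv, eq_mul_inv_iff_mul_eq, mul_assoc, inv_mul_eq_iff_eq_mul, ← mul_assoc, he, mul_assoc]
    rw [h1]
    have h3 := hbc B' c' hcC' X
    have h4 := hbc B c hcC X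
    calc f₂ B' * c' * (f₂ B * c)⁻¹ * f₁ X = f₂ B' * c' * ((f₂ B * c)⁻¹ * (f₁ X * (f₂ B * c)) * (f₂ B * c)⁻¹) := by group
      _ = f₂ B' * c' * ((f₂ B * c)⁻¹ * (f₂ B * c * f₁ X) * (f₂ B * c)⁻¹) := by rw [h4]
      _ = (f₂ B' * c' * f₁ X) * (f₂ B * c)⁻¹ := by group
      _ = f₁ X * (f₂ B' * c') * (f₂ B * c)⁻¹ := by rw [h3]
      _ = f₁ X * (f₂ B' * c' * (f₂ B * c)⁻¹) := by group
  have hcen : Finite ↥(Subgroup.center (SL k)) := by
    have e1 := Matrix.SpecialLinearGroup.center_equiv_rootsOfUnity (n := Fin 2) (R := k)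
    have : NeZero (max (Fintype.card (Fin 2)) 1) := ⟨by simp⟩
    exact Finite.of_equiv _ e1.symm.toEquiv
  -- `Γ` is finite
  have hΓfin : Finite ↥Γ := by
    choose b hb using fun A : Γ => (hΓ A).1 A.2
    choose c hcc using hb
    let y : Γ → P := fun A => ⟨f₁ A * f₂ (b A) * c A, (hcc A).2⟩
    classical
    let g : P → SL k := fun z => if h : ∃ A : Γ, y A = z then (h.choose : SL k) else 1
    have hg : ∀ A : Γ, (g (y A))⁻¹ * (A : SL k) ∈ Subgroup.center (SL k) := by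
      intro A
      have hex : ∃ A' : Γ, y A' = y A := ⟨A, rfl⟩
      have h3 : g (y A) = (hex.choose : SL k) := dif_pos hex
      rw [h3]
      exact hZ _ _ _ _ _ _ (hcc A).1 (hcc hex.choose).1 (congrArg Subtype.val hex.choose_spec).symm
    refine Finite.of_injective (fun A : Γ => (y A, (⟨_, hg A⟩ : ↥(Subgroup.center (SL k))))) ?_
    intro A A' hAA
    have h3 := congrArg Prod.fst hAA
    have h4 := congrArg (fun z => ((Prod.snd z : ↥(Subgroup.center (SL k))) : SL k)) hAA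
    simp only at h3 h4
    rw [h3] at h4
    exact Subtype.ext (mul_left_cancel h4)
  have hpw : ∀ (A B : SL k) (c : Y), c ∈ C → ∀ n : ℕ, (f₁ A * f₂ B * c) ^ n = f₁ (A ^ n) * f₂ (B ^ n) * c ^ n := by
    intro A B c hcC n
    have h3 : Commute (f₁ A) (f₂ B * c) := by
      have := hbc B c hcC A
      exact this.symm
    have h4 : Commute (f₂ B) c := (hC2 c hcC B).symm
    rw [mul_assoc, h3.mul_pow, h4.mul_pow, map_pow, map_pow, mul_assoc]
  have hΓ2 : IsPGroup 2 ↥Γ := by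
    rintro ⟨A, hA⟩
    obtain ⟨B, c, hcC, hA'⟩ := (hΓ A).1 hA
    obtain ⟨n, hn'⟩ := hP ⟨_, hA'⟩
    have h3 : (f₁ A * f₂ B * c) ^ 2 ^ n = 1 := congrArg Subtype.val hn'
    rw [hpw A B c hcC] at h3
    have h4 := hZ (A ^ 2 ^ n) (B ^ 2 ^ n) (c ^ 2 ^ n) 1 1 1 (pow_mem hcC _) (one_mem _) (by rw [h3]; simp)
    rw [inv_one, one_mul] at h4
    have h6 : (A ^ 2 ^ n) ^ 2 = 1 := sq_of_comm (Subgroup.mem_center_iff.1 h4 _).symm (Subgroup.mem_center_iff.1 h4 _).symm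
    refine ⟨n + 1, Subtype.ext ?_⟩
    show A ^ 2 ^ (n + 1) = 1
    rw [pow_succ, pow_mul, h6]
  refine comm_of_two h2 hq h5 Γ hΓfin hΓ2 B₁ hB (fun A hA => ?_) A ⟨B, c, hcC, hA⟩
  obtain ⟨B, c, hcC, hA'⟩ := (hΓ A).1 hA
  refine ⟨B₂ * B * B₂⁻¹, c, hcC, ?_⟩
  have h3 := hn _ hA'
  have e1 : f₁ (B₁ * A * B₁⁻¹) * f₂ (B₂ * B * B₂⁻¹) * c = h * (f₁ A * f₂ B * c) * h⁻¹ := by
    have g1 := hbc B₂ e he A
    have g2 := hCab c hcC e he
    have g3 : ∀ X, e * f₂ X = f₂ X * e := fun X => hC2 e he X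
    have g4 : ∀ X, e * f₁ X = f₁ X * e := fun X => hC1 e he X
    have g5 : ∀ X, c * f₂ X = f₂ X * c := fun X => hC2 c hcC X
    have g6 : ∀ X, c * f₁ X = f₁ X * c := fun X => hC1 c hcC X
    have k1 : h * (f₁ A * f₂ B * c) = f₁ (B₁ * A) * f₂ (B₂ * B) * c * e := by
      rw [hh, map_mul, map_mul]
      calc f₁ B₁ * f₂ B₂ * e * (f₁ A * f₂ B * c) = f₁ B₁ * f₂ B₂ * (e * f₁ A) * f₂ B * c := by group
        _ = f₁ B₁ * f₂ B₂ * (f₁ A * e) * f₂ B * c := by rw [g4]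
        _ = f₁ B₁ * (f₂ B₂ * f₁ A) * (e * f₂ B) * c := by group
        _ = f₁ B₁ * (f₁ A * f₂ B₂) * (f₂ B * e) * c := by rw [← hc, g3]
        _ = f₁ B₁ * f₁ A * (f₂ B₂ * f₂ B) * (e * c) := by group
        _ = f₁ B₁ * f₁ A * (f₂ B₂ * f₂ B) * (c * e) := by rw [g2]
        _ = f₁ B₁ * f₁ A * (f₂ B₂ * f₂ B) * c * e := by group
    have k2 : f₁ (B₁ * A * B₁⁻¹) * f₂ (B₂ * B * B₂⁻¹) * c * h = f₁ (B₁ * A) * f₂ (B₂ * B) * c * e := by
      have e5 : ∀ X X', f₂ X * f₁ X' = f₁ X' * f₂ X := fun X X' => (hc X' X).symm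
      rw [hh]
      calc f₁ (B₁ * A * B₁⁻¹) * f₂ (B₂ * B * B₂⁻¹) * c * (f₁ B₁ * f₂ B₂ * e)
          = f₁ (B₁ * A * B₁⁻¹) * f₂ (B₂ * B * B₂⁻¹) * (c * f₁ B₁) * f₂ B₂ * e := by group
        _ = f₁ (B₁ * A * B₁⁻¹) * f₂ (B₂ * B * B₂⁻¹) * (f₁ B₁ * c) * f₂ B₂ * e := by rw [g6]
        _ = f₁ (B₁ * A * B₁⁻¹) * (f₂ (B₂ * B * B₂⁻¹) * f₁ B₁) * (c * f₂ B₂) * e := by group
        _ = f₁ (B₁ * A * B₁⁻¹) * (f₁ B₁ * f₂ (B₂ * B * B₂⁻¹)) * (f₂ B₂ * c) * e := by rw [e5, g5]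
        _ = (f₁ (B₁ * A * B₁⁻¹) * f₁ B₁) * (f₂ (B₂ * B * B₂⁻¹) * f₂ B₂) * c * e := by group
        _ = f₁ (B₁ * A) * f₂ (B₂ * B) * c * e := by
          rw [← map_mul, ← map_mul, inv_mul_cancel_right, inv_mul_cancel_right]
    rw [k1, ← k2, mul_inv_cancel_right]
  rw [e1]
  exact h3

/-- both factors -/
theorem both (h2 : (2 : k) ≠ 0) (hinj1 : Function.Injective f₁) (hinj2 : Function.Injective f₂)
    (hc : ∀ A B, f₁ A * f₂ B = f₂ B * f₁ A) (hCab : ∀ c ∈ C, ∀ d ∈ C, c * d = d * c)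
    (hC1 : ∀ c ∈ C, ∀ A, c * f₁ A = f₁ A * c) (hC2 : ∀ c ∈ C, ∀ A, c * f₂ A = f₂ A * c)
    {q : ℕ} (hq : q.Prime) (h5 : 5 ≤ q) {P : Subgroup Y} (hfin : Finite P) (hP : IsPGroup 2 P) {h : Y} {B₁ B₂ : SL k} {e : Y}
    (he : e ∈ C) (hh : h = f₁ B₁ * f₂ B₂ * e) (hB : B₁ ^ q = 1) (hB' : B₂ ^ q = 1) (hn : ∀ x ∈ P, h * x * h⁻¹ ∈ P)
    {A B : SL k} {c : Y} (hcC : c ∈ C) (hA : f₁ A * f₂ B * c ∈ P) :
    h * (f₁ A * f₂ B * c) = (f₁ A * f₂ B * c) * h := by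
  have h3 := first_factor h2 hinj1 hc hCab hC1 hC2 hq h5 hfin hP he hh hB hn hcC hA
  have h4 := first_factor h2 hinj2 (fun A B => (hc B A).symm) hCab hC2 hC1 hq h5 hfin hP he
    (by rw [hh, hc]) hB' hn hcC (A := B) (B := A) (by rw [← hc]; exact hA)
  have g2 := hCab c hcC e he
  have k1 : h * (f₁ A * f₂ B * c) = f₁ (B₁ * A) * f₂ (B₂ * B) * (e * c) := by
    rw [hh, map_mul, map_mul]
    calc f₁ B₁ * f₂ B₂ * e * (f₁ A * f₂ B * c) = f₁ B₁ * f₂ B₂ * (e * f₁ A) * f₂ B * c := by group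
      _ = f₁ B₁ * f₂ B₂ * (f₁ A * e) * f₂ B * c := by rw [hC1 e he]
      _ = f₁ B₁ * (f₂ B₂ * f₁ A) * (e * f₂ B) * c := by group
      _ = f₁ B₁ * (f₁ A * f₂ B₂) * (f₂ B * e) * c := by rw [← hc, hC2 e he]
      _ = f₁ B₁ * f₁ A * (f₂ B₂ * f₂ B) * (e * c) := by group
  have k2 : (f₁ A * f₂ B * c) * h = f₁ (A * B₁) * f₂ (B * B₂) * (c * e) := by
    rw [hh, map_mul, map_mul]
    calc f₁ A * f₂ B * c * (f₁ B₁ * f₂ B₂ * e) = f₁ A * f₂ B * (c * f₁ B₁) * f₂ B₂ * e := by group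
      _ = f₁ A * f₂ B * (f₁ B₁ * c) * f₂ B₂ * e := by rw [hC1 c hcC]
      _ = f₁ A * (f₂ B * f₁ B₁) * (c * f₂ B₂) * e := by group
      _ = f₁ A * (f₁ B₁ * f₂ B) * (f₂ B₂ * c) * e := by rw [← hc, hC2 c hcC]
      _ = f₁ A * f₁ B₁ * (f₂ B * f₂ B₂) * (c * e) := by group
  rw [k1, k2, h3, h4, g2]

end core

/-! ### the application -/

/-- the elements of the torus commuting with both groups -/
noncomputable def CC (hP : POK D s s') : Subgroup ↥(D.group k) :=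
  TT D k ⊓ (Subgroup.centralizer ((ph hp k hP.hs).range : Set ↥(D.group k)) ⊓
    Subgroup.centralizer ((ph hp k hP.hs').range : Set ↥(D.group k)))

include hP in
theorem cc_comm1 {c : ↥(D.group k)} (hc : c ∈ CC hp hP) (A : SL k) : c * ph hp k hP.hs A = ph hp k hP.hs A * c :=
  (Subgroup.mem_centralizer_iff.1 hc.2.1 _ ⟨A, rfl⟩).symm

include hP in
theorem cc_comm2 {c : ↥(D.group k)} (hc : c ∈ CC hp hP) (A : SL k) : c * ph hp k hP.hs' A = ph hp k hP.hs' A * c :=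
  (Subgroup.mem_centralizer_iff.1 hc.2.2 _ ⟨A, rfl⟩).symm

/-- `L₁ L₂ T` -/
noncomputable def MG (hP : POK D s s') : Subgroup ↥(D.group k) where
  carrier := {g | ∃ A B : SL k, ∃ c ∈ CC hp (k := k) hP, g = ph hp k hP.hs A * ph hp k hP.hs' B * c}
  one_mem' := ⟨1, 1, 1, one_mem _, by simp⟩
  mul_mem' := by
    rintro _ _ ⟨A, B, c, hc, rfl⟩ ⟨A', B', c', hc', rfl⟩
    refine ⟨A * A', B * B', c * c', mul_mem hc hc', ?_⟩
    rw [map_mul, map_mul]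
    calc ph hp k hP.hs A * ph hp k hP.hs' B * c * (ph hp k hP.hs A' * ph hp k hP.hs' B' * c')
        = ph hp k hP.hs A * ph hp k hP.hs' B * (c * ph hp k hP.hs A') * ph hp k hP.hs' B' * c' := by group
      _ = ph hp k hP.hs A * ph hp k hP.hs' B * (ph hp k hP.hs A' * c) * ph hp k hP.hs' B' * c' := by
          rw [cc_comm1 hp hP hc]
      _ = ph hp k hP.hs A * (ph hp k hP.hs' B * ph hp k hP.hs A') * (c * ph hp k hP.hs' B') * c' := by group
      _ = ph hp k hP.hs A * (ph hp k hP.hs A' * ph hp k hP.hs' B) * (ph hp k hP.hs' B' * c) * c' := by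
          rw [← ph_comm hp hP, cc_comm2 hp hP hc]
      _ = ph hp k hP.hs A * ph hp k hP.hs A' * (ph hp k hP.hs' B * ph hp k hP.hs' B') * (c * c') := by group
  inv_mem' := by
    rintro _ ⟨A, B, c, hc, rfl⟩
    refine ⟨A⁻¹, B⁻¹, c⁻¹, inv_mem hc, ?_⟩
    have h1 : ph hp k hP.hs A * ph hp k hP.hs' B * c = c * ph hp k hP.hs' B * ph hp k hP.hs A := by
      rw [ph_comm hp hP, mul_assoc, ← cc_comm1 hp hP hc, ← mul_assoc, cc_comm2 hp hP hc]
    rw [h1]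
    simp [mul_assoc]

theorem mem_MG {g : ↥(D.group k)} : g ∈ MG hp (k := k) hP ↔
    ∃ A B : SL k, ∃ c ∈ CC hp (k := k) hP, g = ph hp k hP.hs A * ph hp k hP.hs' B * c := Iff.rfl

theorem hS_pow {c : k} (hc : c ≠ 0) (n : ℕ) : (hS c : SL k) ^ n = hS (c ^ n) := by
  induction n with
  | zero =>
    rw [pow_zero, pow_zero]
    apply Subtype.ext
    rw [coe_hS one_ne_zero]
    ext a b
    fin_cases a <;> fin_cases b <;> simp
  | succ n ih =>
    rw [pow_succ, ih, pow_succ]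
    obtain ⟨u1, u2, u3, u4⟩ := hS_entries (pow_ne_zero n hc)
    obtain ⟨v1, v2, v3, v4⟩ := hS_entries hc
    obtain ⟨w1, w2, w3, w4⟩ := hS_entries (mul_ne_zero (pow_ne_zero n hc) hc)
    refine sl_ext ?_ ?_ ?_ ?_
    · rw [mul00, u1, v1, u2, v3, w1]; ring
    · rw [mul01, u1, v2, u2, v4, w2]; ring
    · rw [mul10, u3, v1, u4, v3, w3]; ring
    · rw [mul11, u3, v2, u4, v4, w4, mul_inv]; ring

theorem hS_one : (hS (1 : k) : SL k) = 1 := by
  have := hS_pow (k := k) (c := 1) one_ne_zero 0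
  rw [pow_zero, pow_zero] at this
  exact this.symm

include hP in
/-- the torus lies in `MG`; version with prescribed square roots -/
theorem TT_decomp (p : ℕ) [Fact p.Prime] [CharP k p] (hk : LocFin k) {t : ↥(D.group k)} (ht : t ∈ TT D k)
    {μ μ' : k} (h0 : μ ≠ 0) (h0' : μ' ≠ 0) (hμ : μ ^ 2 = ch hp (vec D l s) t) (hμ' : μ' ^ 2 = ch hp (vec D l s') t) :
    (ph hp k hP.hs (hS μ) * ph hp k hP.hs' (hS μ'))⁻¹ * t ∈ CC hp (k := k) hP := by
  have m1 := ph_hS_mem hp (k := k) hP.hs h0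
  have m2 := ph_hS_mem hp (k := k) hP.hs' h0'
  have m3 := mul_mem m1 m2
  set c := (ph hp k hP.hs (hS μ) * ph hp k hP.hs' (hS μ'))⁻¹ * t with hc
  have hcT : c ∈ TT D k := mul_mem (inv_mem m3) ht
  have hself : ∀ r, HMatDiagAll.expo D r r = 2 := fun r => by unfold HMatDiagAll.expo; rw [if_pos rfl]
  have e1 : ch hp (vec D l s) c = 1 := by
    have h2 := ch_mul hp p hk hP.hs m3 hcT
    rw [hc, mul_inv_cancel_left, ch_mul hp p hk hP.hs m1 m2, ch_ph_hS hp hP.hs p hk h0 hP.hs,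
      ch_ph_hS hp hP.hs' p hk h0' hP.hs, hself, hP.e2, zpow_zero, mul_one, ← hμ] at h2
    have h4 : μ ^ (2 : ℤ) = μ ^ 2 := by norm_cast
    rw [h4] at h2
    exact (mul_eq_left₀ (pow_ne_zero 2 h0)).1 h2.symm
  have e2 : ch hp (vec D l s') c = 1 := by
    have h2 := ch_mul hp p hk hP.hs' m3 hcT
    rw [hc, mul_inv_cancel_left, ch_mul hp p hk hP.hs' m1 m2, ch_ph_hS hp hP.hs p hk h0 hP.hs',
      ch_ph_hS hp hP.hs' p hk h0' hP.hs', hself, hP.e1, zpow_zero, one_mul, ← hμ'] at h2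
    have h4 : μ' ^ (2 : ℤ) = μ' ^ 2 := by norm_cast
    rw [h4] at h2
    exact (mul_eq_left₀ (pow_ne_zero 2 h0')).1 h2.symm
  refine ⟨hcT, mem_cent hp hP.hs (comm_xs_of_ch hp hP.hs hcT e1) (comm_xs_of_ch hp (neg_lt hp.inList hP.hs) hcT ?_),
    mem_cent hp hP.hs' (comm_xs_of_ch hp hP.hs' hcT e2) (comm_xs_of_ch hp (neg_lt hp.inList hP.hs') hcT ?_)⟩
  · rw [ch_neg hp hP.hs p hk hcT, e1, inv_one]
  · rw [ch_neg hp hP.hs' p hk hcT, e2, inv_one]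

include hP in
theorem TT_le_MG [IsAlgClosed k] (p : ℕ) [Fact p.Prime] [CharP k p] (hk : LocFin k) : TT D k ≤ MG hp (k := k) hP := by
  intro t ht
  obtain ⟨μ, hμ⟩ := IsAlgClosed.exists_pow_nat_eq (ch hp (vec D l s) t) (show 0 < 2 by norm_num)
  obtain ⟨μ', hμ'⟩ := IsAlgClosed.exists_pow_nat_eq (ch hp (vec D l s') t) (show 0 < 2 by norm_num)
  have h0 : μ ≠ 0 := by
    rintro rfl
    exact (act hp hP.hs ht).1 (by rw [← hμ, zero_pow (by norm_num)])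
  have h0' : μ' ≠ 0 := by
    rintro rfl
    exact (act hp hP.hs' ht).1 (by rw [← hμ', zero_pow (by norm_num)])
  exact ⟨hS μ, hS μ', _, TT_decomp hp hP p hk ht h0 h0' hμ hμ', by rw [mul_inv_cancel_left]⟩

include hP in
theorem X_le_MG {r : ℕ} (hr : r = s ∨ r = D.neg s ∨ r = s' ∨ r = D.neg s') :
    XX D l k (vec D l r) ≤ MG hp (k := k) hP := by
  have hr' : r < D.nroots := by
    rcases hr with rfl | rfl | rfl | rfl
    · exact hP.hs
    · exact neg_lt hp.inList hP.hs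
    · exact hP.hs'
    · exact neg_lt hp.inList hP.hs'
  intro y hy
  obtain ⟨t, ht⟩ := (LangThm.mem_XX_vec hp hr').1 hy
  have hy' : y = xs hp.inList r t := Subtype.ext ht
  subst hy'
  rcases hr with rfl | rfl | rfl | rfl
  · exact ⟨up t, 1, 1, one_mem _, by rw [ph_up, map_one, mul_one, mul_one]⟩
  · exact ⟨lo t, 1, 1, one_mem _, by rw [ph_lo, map_one, mul_one, mul_one]⟩
  · exact ⟨1, up t, 1, one_mem _, by rw [ph_up, map_one, one_mul, mul_one]⟩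
  · exact ⟨1, lo t, 1, one_mem _, by rw [ph_lo, map_one, one_mul, mul_one]⟩

include hP in
/-- **The core**: a toral element of prime order `q ≥ 5` centralises the 2-subgroups of `L₁ L₂ T` which it normalises. -/
theorem two_core [IsAlgClosed k] (h2 : (2 : k) ≠ 0) (p : ℕ) [Fact p.Prime] [CharP k p] (hk : LocFin k)
    (hTab : ∀ x ∈ TT D k, ∀ y ∈ TT D k, x * y = y * x)
    {q : ℕ} (hq : q.Prime) (h5 : 5 ≤ q) {P : Subgroup ↥(D.group k)} (hfin : Finite P) (hP2 : IsPGroup 2 P)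
    (hPM : P ≤ MG hp (k := k) hP) {h : ↥(D.group k)} (hh : h ∈ TT D k) (hhq : h ^ q = 1)
    (hn : ∀ x ∈ P, h * x * h⁻¹ ∈ P) : ∀ x ∈ P, h * x = x * h := by
  intro x hx
  obtain ⟨A, B, c, hc, rfl⟩ := (mem_MG hp hP).1 (hPM hx)
  obtain ⟨m, hm⟩ : ∃ m, q + 1 = 2 * m := by
    have : Odd q := hq.odd_of_ne_two (by omega)
    obtain ⟨j, hj⟩ := this
    exact ⟨j + 1, by omega⟩
  have root : ∀ a : k, a ^ q = 1 → (a ^ m) ^ 2 = a := by
    intro a ha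
    rw [← pow_mul, mul_comm, ← hm, pow_succ, ha, one_mul]
  have root' : ∀ a : k, a ^ q = 1 → (a ^ m) ^ q = 1 := by
    intro a ha
    rw [← pow_mul, mul_comm, pow_mul, ha, one_pow]
  have hα : ch hp (vec D l s) h ^ q = 1 := by
    rw [← ch_pow hp p hk hP.hs hh, hhq, ch_one hp p hk hP.hs]
  have hβ : ch hp (vec D l s') h ^ q = 1 := by
    rw [← ch_pow hp p hk hP.hs' hh, hhq, ch_one hp p hk hP.hs']
  have h0 : ch hp (vec D l s) h ^ m ≠ 0 := pow_ne_zero _ (act hp hP.hs hh).1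
  have h0' : ch hp (vec D l s') h ^ m ≠ 0 := pow_ne_zero _ (act hp hP.hs' hh).1
  have he := TT_decomp hp hP p hk hh h0 h0' (root _ hα) (root _ hβ)
  obtain ⟨r1, hr1, o1⟩ := hP.o1
  obtain ⟨r2, hr2, o2⟩ := hP.o2
  refine both (f₁ := ph hp k hP.hs) (f₂ := ph hp k hP.hs') (C := CC hp (k := k) hP) h2
    ((injective_iff_map_eq_one _).2 fun A hA => ph_inj hp hP.hs h2 p hk hr1 o1 hA)
    ((injective_iff_map_eq_one _).2 fun A hA => ph_inj hp hP.hs' h2 p hk hr2 o2 hA)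
    (ph_comm hp hP) (fun c hc d hd => hTab c hc.1 d hd.1) (fun c hc A => cc_comm1 hp hP hc A)
    (fun c hc A => cc_comm2 hp hP hc A) hq h5 hfin hP2
    (h := h) (B₁ := hS (ch hp (vec D l s) h ^ m)) (B₂ := hS (ch hp (vec D l s') h ^ m)) he
    (by rw [mul_inv_cancel_left]) ?_ ?_ hn hc hx
  · rw [hS_pow (pow_ne_zero _ (act hp hP.hs hh).1), root' _ hα, hS_one]
  · rw [hS_pow (pow_ne_zero _ (act hp hP.hs' hh).1), root' _ hβ, hS_one]

end Cfsg.Agent.H554.BS
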